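import Cfsg.Agent.Huppert.Cases
import Cfsg.Agent.Solvable.Hall
import Mathlib.FieldTheory.Finite.GaloisField
import Mathlib.LinearAlgebra.Matrix.GeneralLinearGroup.Card

/-!
# Solvable linear groups transitive on lines and on planes

In dimension at least three they exist only in dimension three and for `GF(2)^5`, and are semilinear.
-/

set_option autoImplicit false
set_option linter.style.haveILetI false

namespace CfsgLib.Huppert.PlaneTrans

variable {q : ℕ} [hq : Fact q.Prime] {V : Type*} [AddCommGroup V] [Module (ZMod q) V] [Finite V]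

/-- Counting planes through independent pairs. -/
theorem card_planes (h2 : 2 ≤ Module.finrank (ZMod q) V) :
    Nat.card {U : Submodule (ZMod q) V // Module.finrank (ZMod q) U = 2} * ((q ^ 2 - 1) * (q ^ 2 - q)) =
      (q ^ Module.finrank (ZMod q) V - 1) * (q ^ Module.finrank (ZMod q) V - q) := by
  classical
  haveI : Module.Finite (ZMod q) V := Module.Finite.of_finite
  let f : {s : Fin 2 → V // LinearIndependent (ZMod q) s} →
      {U : Submodule (ZMod q) V // Module.finrank (ZMod q) U = 2} :=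
    fun s => ⟨Submodule.span (ZMod q) (Set.range s.1), by
      rw [finrank_span_eq_card s.2, Fintype.card_fin]⟩
  have hcount : ∀ {W : Type _} [AddCommGroup W] [Module (ZMod q) W] [Finite W],
      2 ≤ Module.finrank (ZMod q) W → Nat.card {s : Fin 2 → W // LinearIndependent (ZMod q) s} =
        (q ^ Module.finrank (ZMod q) W - 1) * (q ^ Module.finrank (ZMod q) W - q) := by
    intro W _ _ _ h
    haveI : Module.Finite (ZMod q) W := Module.Finite.of_finite
    haveI : Fintype W := Fintype.ofFinite W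
    rw [card_linearIndependent h, ZMod.card, Fin.prod_univ_two]
    simp
  have hfib : ∀ U : {U : Submodule (ZMod q) V // Module.finrank (ZMod q) U = 2},
      Nat.card {s // f s = U} = (q ^ 2 - 1) * (q ^ 2 - q) := by
    intro U
    haveI : Module.Finite (ZMod q) U.1 := Module.Finite.of_finite
    have h := hcount (W := U.1) U.2.ge
    rw [U.2] at h
    rw [← h]
    refine Nat.card_congr
      { toFun := fun s => ⟨fun i => ⟨s.1.1 i, ?_⟩, LinearIndependent.of_comp U.1.subtype s.1.2⟩
        invFun := fun s => ⟨⟨fun i => (s.1 i : V), s.2.map' U.1.subtype U.1.ker_subtype⟩, ?_⟩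
        left_inv := fun s => rfl
        right_inv := fun s => rfl }
    · have hs : Submodule.span (ZMod q) (Set.range s.1.1) = U.1 := congrArg Subtype.val s.2
      exact hs.le (Submodule.subset_span ⟨i, rfl⟩)
    · apply Subtype.ext
      show Submodule.span (ZMod q) (Set.range fun i => (s.1 i : V)) = U.1
      refine Submodule.eq_of_le_of_finrank_le (Submodule.span_le.2 ?_) ?_
      · rintro _ ⟨i, rfl⟩; exact (s.1 i).2
      · rw [U.2, finrank_span_eq_card (R := ZMod q) (b := fun i => (s.1 i : V))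
          (s.2.map' U.1.subtype U.1.ker_subtype), Fintype.card_fin]
  haveI : Finite (Submodule (ZMod q) V) := Finite.of_injective (fun U => (U : Set V)) SetLike.coe_injective
  haveI : Fintype {U : Submodule (ZMod q) V // Module.finrank (ZMod q) U = 2} := Fintype.ofFinite _
  rw [← hcount h2, Nat.card_congr (Equiv.sigmaFiberEquiv f).symm, Nat.card_sigma,
    Finset.sum_congr rfl (fun U _ => hfib U), Finset.sum_const, Finset.card_univ, smul_eq_mul,
    Nat.card_eq_fintype_card]

/-- The arithmetic restriction. -/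
theorem dim_of_dvd {q n : ℕ} (hq : q.Prime) (hn : 3 ≤ n) (h : q ^ (n - 1) - 1 ∣ n * (q ^ 2 - 1)) :
    n = 3 ∨ (n = 5 ∧ q = 2) := by
  have h2 := hq.two_le
  have hsq : 4 ≤ q ^ 2 := Nat.pow_le_pow_left h2 2
  have hpos : 0 < n * (q ^ 2 - 1) := Nat.mul_pos (by omega) (by omega)
  have hle := Nat.le_of_dvd hpos h
  rcases Nat.lt_or_ge n 6 with hn6 | hn6
  · interval_cases n
    · exact Or.inl rfl
    · exfalso
      simp only [show (4 : ℕ) - 1 = 3 from rfl] at h hle
      have hq5 : q < 5 := by
        by_contra hq5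
        push_neg at hq5
        have : 5 * q ^ 2 ≤ q ^ 3 := by rw [show q ^ 3 = q * q ^ 2 by ring]; exact Nat.mul_le_mul_right _ hq5
        omega
      interval_cases q <;> norm_num at h
    · right
      refine ⟨rfl, ?_⟩
      simp only [show (5 : ℕ) - 1 = 4 from rfl] at hle
      by_contra hq2
      have h9 : 9 * q ^ 2 ≤ q ^ 4 := by
        rw [show q ^ 4 = q ^ 2 * q ^ 2 by ring]
        exact Nat.mul_le_mul_right _ (Nat.pow_le_pow_left (show 3 ≤ q by omega) 2)
      omega
  · exfalso
    obtain ⟨t, rfl⟩ : ∃ t, n = t + 6 := ⟨n - 6, by omega⟩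
    have h8 : t + 7 ≤ 2 ^ (t + 3) := by
      have := Nat.lt_two_pow_self (n := t)
      rw [pow_add]
      omega
    have h9 : (t + 7) * q ^ 2 ≤ q ^ (t + 6 - 1) := by
      rw [show t + 6 - 1 = (t + 3) + 2 by omega, pow_add q (t + 3) 2]
      exact Nat.mul_le_mul_right _ (h8.trans (Nat.pow_le_pow_left h2 _))
    have h10 : (t + 6) * (q ^ 2 - 1) ≤ (t + 6) * q ^ 2 := Nat.mul_le_mul_left _ (Nat.sub_le _ _)
    nlinarith [Nat.sub_add_cancel (Nat.one_le_pow (t + 6 - 1) q hq.pos)]

theorem card_GL : Nat.card (V ≃ₗ[ZMod q] V) =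
    ∏ i : Fin (Module.finrank (ZMod q) V), (q ^ Module.finrank (ZMod q) V - q ^ (i : ℕ)) := by
  haveI : Module.Finite (ZMod q) V := Module.Finite.of_finite
  have e1 : (V ≃ₗ[ZMod q] V) ≃ (V →ₗ[ZMod q] V)ˣ :=
    (LinearMap.GeneralLinearGroup.generalLinearEquiv (ZMod q) V).symm.toEquiv
  have e2 : (V →ₗ[ZMod q] V)ˣ ≃ GL (Fin (Module.finrank (ZMod q) V)) (ZMod q) :=
    (Units.mapEquiv (LinearMap.toMatrixAlgEquiv (Module.finBasis (ZMod q) V)).toMulEquiv).toEquiv
  rw [Nat.card_congr (e1.trans e2), Matrix.card_GL_field, ZMod.card]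

theorem dvd_sixty_five {d : ℕ} (hd : d ∣ 65) (h : d ≡ 1 [MOD 13] ∨ d ≡ 1 [MOD 5]) : d = 1 := by
  have key : ∀ e ∈ Nat.divisors 65, e % 13 = 1 ∨ e % 5 = 1 → e = 1 := by decide
  exact key d (Nat.mem_divisors.2 ⟨hd, by norm_num⟩) h

/-- Commuting elements of orders 13 and 5 do not exist in `GL(4,3)`. -/
theorem no_commuting_thirteen_five {V : Type*} [AddCommGroup V] [Module (ZMod 3) V] [Finite V]
    (hV : Module.finrank (ZMod 3) V = 4) {a b : V ≃ₗ[ZMod 3] V} (ha : orderOf a = 13)
    (hb : orderOf b = 5) (hab : a * b = b * a) : False := by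
  classical
  haveI : Fact (Nat.Prime 3) := ⟨Nat.prime_three⟩
  haveI : Fact (Nat.Prime 5) := ⟨by norm_num⟩
  haveI : Fact (Nat.Prime 13) := ⟨by norm_num⟩
  haveI : Module.Finite (ZMod 3) V := Module.Finite.of_finite
  -- the fixed space of an element
  let Fx : (V ≃ₗ[ZMod 3] V) → Submodule (ZMod 3) V := fun c =>
    LinearMap.eqLocus (c : V →ₗ[ZMod 3] V) LinearMap.id
  have hmem : ∀ c v, v ∈ Fx c ↔ c v = v := fun c v => Iff.rfl
  have key : ∀ (c : V ≃ₗ[ZMod 3] V) (r : ℕ) [Fact r.Prime], orderOf c = r →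
      81 ≡ 3 ^ Module.finrank (ZMod 3) (Fx c) [MOD r] := by
    intro c r _ hc
    have hR : IsPGroup r (Subgroup.zpowers c) :=
      IsPGroup.of_card (n := 1) (by rw [Nat.card_zpowers, hc, pow_one])
    letI : MulAction (Subgroup.zpowers c) V :=
      { smul := fun g w => (g : V ≃ₗ[ZMod 3] V) w
        one_smul := fun w => rfl
        mul_smul := fun g g' w => rfl }
    have h := hR.card_modEq_card_fixedPoints V
    have hfx : Nat.card (MulAction.fixedPoints (Subgroup.zpowers c) V) = Nat.card (Fx c) := by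
      refine Nat.card_congr (Equiv.setCongr (Set.ext fun v => ?_))
      refine ⟨fun hv => (hmem c v).2 (hv ⟨c, Subgroup.mem_zpowers c⟩), fun hv g => ?_⟩
      have hle : Subgroup.zpowers c ≤ MulAction.stabilizer (V ≃ₗ[ZMod 3] V) v :=
        Subgroup.zpowers_le.2 ((hmem c v).1 hv)
      exact hle g.2
    rwa [hfx, Module.natCard_eq_pow_finrank (K := ZMod 3) (V := Fx c),
      Module.natCard_eq_pow_finrank (K := ZMod 3) (V := V), hV, Nat.card_zmod] at h
  have hne : ∀ (c : V ≃ₗ[ZMod 3] V), c ≠ 1 → Module.finrank (ZMod 3) (Fx c) < 4 := by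
    intro c hc
    rw [← hV]
    refine Submodule.finrank_lt fun h => hc (LinearEquiv.ext fun v => ?_)
    exact (hmem c v).1 (h ▸ Submodule.mem_top)
  have ha1 : a ≠ 1 := fun h => by rw [h, orderOf_one] at ha; omega
  have hb1 : b ≠ 1 := fun h => by rw [h, orderOf_one] at hb; omega
  have ka := key a 13 ha
  have kb := key b 5 hb
  have la := hne a ha1
  have lb := hne b hb1
  set da := Module.finrank (ZMod 3) (Fx a) with hda
  set db := Module.finrank (ZMod 3) (Fx b) with hdb
  have hdb0 : db = 0 := by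
    interval_cases db
    · rfl
    all_goals simp [Nat.ModEq] at kb
  have hda1 : da = 1 := by
    interval_cases da
    · simp [Nat.ModEq] at ka
    · rfl
    all_goals simp [Nat.ModEq] at ka
  -- `b` fixes a vector in the line fixed by `a`
  obtain ⟨⟨v, hv⟩, hv0, hspan⟩ := finrank_eq_one_iff'.1 (hda ▸ hda1)
  have hbv : b v ∈ Fx a := by
    rw [hmem, ← LinearEquiv.mul_apply, hab, LinearEquiv.mul_apply, (hmem a v).1 hv]
  obtain ⟨c, hc⟩ := hspan ⟨b v, hbv⟩
  have hc' : c • v = b v := congrArg Subtype.val hc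
  have h5 : ∀ i : ℕ, (b ^ i) v = c ^ i • v := by
    intro i
    induction i with
    | zero => simp
    | succ i ih => rw [pow_succ', LinearEquiv.mul_apply, ih, map_smul, ← hc', smul_smul, pow_succ]
  have h55 := h5 5
  rw [show b ^ 5 = 1 by rw [← hb, pow_orderOf_eq_one]] at h55
  have hv' : v ≠ 0 := fun h => hv0 (Subtype.ext h)
  have hc5 : c ^ 5 = 1 := smul_left_injective (ZMod 3) hv' (show c ^ 5 • v = (1 : ZMod 3) • v by
    rw [one_smul]; exact h55.symm)
  have hc1 : c = 1 := by
    rw [← hc5, show c ^ 5 = c ^ 3 * c ^ 2 by ring, ZMod.pow_card, ← pow_succ', ZMod.pow_card]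
  have : v ∈ Fx b := by rw [hmem, ← hc', hc1, one_smul]
  rw [Submodule.finrank_eq_zero.1 hdb0, Submodule.mem_bot] at this
  exact hv' this

/-- A solvable group of linear maps transitive on lines and on planes. -/
theorem classify (hn : 3 ≤ Module.finrank (ZMod q) V) (H : Subgroup (V ≃ₗ[ZMod q] V))
    (hsol : Group.IsSolvable H)
    (hL : ∀ v w : V, v ≠ 0 → w ≠ 0 → ∃ h ∈ H, ∃ c : ZMod q, h v = c • w)
    (hT : ∀ U W : Submodule (ZMod q) V, Module.finrank (ZMod q) U = 2 → Module.finrank (ZMod q) W = 2 →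
      ∃ h ∈ H, U.map (h : V →ₗ[ZMod q] V) = W) :
    (Module.finrank (ZMod q) V = 3 ∨ (Module.finrank (ZMod q) V = 5 ∧ q = 2)) ∧
    (∃ e : V ≃+ GaloisField q (Module.finrank (ZMod q) V), ∀ h ∈ H,
      ∃ (a : GaloisField q (Module.finrank (ZMod q) V))
        (σ : GaloisField q (Module.finrank (ZMod q) V) ≃+* GaloisField q (Module.finrank (ZMod q) V)),
        ∀ v, e (h v) = a * σ (e v)) ∧
    (q = 2 → Module.finrank (ZMod q) V = 3 → Nat.card H = 7 ∨ Nat.card H = 21) ∧
    (q = 2 → Module.finrank (ZMod q) V = 5 → Nat.card H = 155) := by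
  classical
  haveI : Module.Finite (ZMod q) V := Module.Finite.of_finite
  haveI : Nontrivial V := Module.nontrivial_of_finrank_pos (R := ZMod q) (by omega)
  haveI : Finite (V ≃ₗ[ZMod q] V) := Finite.of_injective (fun e => (e : V → V)) DFunLike.coe_injective
  set n := Module.finrank (ZMod q) V with hndef
  -- adjoin the scalars
  let z : (ZMod q)ˣ →* (V ≃ₗ[ZMod q] V) := MonoidHom.mk' (fun u => LinearEquiv.smulOfUnit u)
    fun a b => LinearEquiv.ext fun v => mul_smul a b v
  have hz : ∀ u v, z u v = (u : ZMod q) • v := fun u v => rfl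
  have hzc : ∀ u (g : V ≃ₗ[ZMod q] V), Commute g (z u) := fun u g => LinearEquiv.ext fun v => by
    rw [LinearEquiv.mul_apply, LinearEquiv.mul_apply, hz, hz, map_smul]
  let Φ : ↥H × (ZMod q)ˣ →* (V ≃ₗ[ZMod q] V) :=
    MonoidHom.noncommCoprod H.subtype z fun h u => hzc u h
  set H' := Φ.range with hH'
  have hmemH : ∀ h ∈ H, h ∈ H' := fun h hh => ⟨(⟨h, hh⟩, 1), by simp [Φ, MonoidHom.noncommCoprod]⟩
  have hmemZ : ∀ u, z u ∈ H' := fun u => ⟨(1, u), by simp [Φ, MonoidHom.noncommCoprod]⟩
  have hsol' : Group.IsSolvable H' := by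
    haveI := hsol
    exact Group.isSolvable_of_surjective Φ.rangeRestrict_surjective
  have htr : CfsgLib.PermGroups.FPFLinear.TransOnVectors H' := by
    intro v w hv hw
    obtain ⟨h, hh, c, hc⟩ := hL v w hv hw
    have hc0 : c ≠ 0 := fun h0 => hv (h.injective (by rw [hc, h0, zero_smul, map_zero]))
    refine ⟨⟨z (Units.mk0 c hc0)⁻¹ * h, mul_mem (hmemZ _) (hmemH h hh)⟩, ?_⟩
    show (z (Units.mk0 c hc0)⁻¹ * h) v = w
    rw [LinearEquiv.mul_apply, hz, hc, smul_smul, Units.val_inv_eq_inv_val, Units.val_mk0,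
      inv_mul_cancel₀ hc0, one_smul]
  -- the planes
  let S := {U : Submodule (ZMod q) V // Module.finrank (ZMod q) U = 2}
  letI : MulAction H' S :=
    { smul := fun g U => ⟨U.1.map ((g : V ≃ₗ[ZMod q] V) : V →ₗ[ZMod q] V),
        ((g : V ≃ₗ[ZMod q] V).finrank_map_eq U.1).trans U.2⟩
      one_smul := fun U => Subtype.ext (Submodule.map_id U.1)
      mul_smul := fun g g' U => Subtype.ext (Submodule.map_comp _ _ U.1) }
  haveI : MulAction.IsPretransitive H' S := ⟨fun U W => by
    obtain ⟨h, hh, he⟩ := hT U.1 W.1 U.2 W.2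
    exact ⟨⟨h, hmemH h hh⟩, Subtype.ext he⟩⟩
  have hplanes := card_planes (q := q) (V := V) (by omega)
  rw [← hndef] at hplanes
  set N2 := Nat.card S with hN2
  change N2 * _ = _ at hplanes
  have hq1 : 1 ≤ q := hq.out.pos
  have hqn : q ^ n - q = q * (q ^ (n - 1) - 1) := by
    rw [Nat.mul_sub, mul_one, ← pow_succ', show n - 1 + 1 = n by omega]
  have hq2q : q ^ 2 - q = q * (q - 1) := by rw [Nat.mul_sub, mul_one, pow_two]
  have hplanes' : N2 * (q - 1) * (q ^ 2 - 1) = (q ^ n - 1) * (q ^ (n - 1) - 1) := by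
    rw [hqn, hq2q] at hplanes
    apply Nat.eq_of_mul_eq_mul_left hq.out.pos
    calc q * (N2 * (q - 1) * (q ^ 2 - 1)) = N2 * ((q ^ 2 - 1) * (q * (q - 1))) := by ring
      _ = _ := by rw [hplanes]; ring
  have hN2pos : 0 < N2 := by
    rcases Nat.eq_zero_or_pos N2 with h | h
    · rw [h, zero_mul, zero_mul] at hplanes'
      have h1 : 1 < q ^ n := Nat.one_lt_pow (by omega) hq.out.one_lt
      have h2 : 1 < q ^ (n - 1) := Nat.one_lt_pow (by omega) hq.out.one_lt
      have := Nat.mul_pos (show 0 < q ^ n - 1 by omega) (show 0 < q ^ (n - 1) - 1 by omega)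
      omega
    · exact h
  obtain ⟨U0⟩ : Nonempty S := (Nat.card_pos_iff.1 hN2pos).1
  have hdvd : N2 * (q - 1) ∣ Nat.card H' := by
    rw [← (MulAction.stabilizer H' U0).index_mul_card, MulAction.index_stabilizer_of_transitive]
    refine Nat.mul_dvd_mul_left _ ?_
    let ζ : (ZMod q)ˣ →* MulAction.stabilizer H' U0 := MonoidHom.mk'
      (fun u => ⟨⟨z u, hmemZ u⟩, by
        refine Subtype.ext (Submodule.eq_of_le_of_finrank_le ?_ ?_)
        · rintro _ ⟨v, hv, rfl⟩
          exact U0.1.smul_mem (u : ZMod q) hv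
        · exact ((z u).finrank_map_eq U0.1).ge⟩)
      fun a b => Subtype.ext (Subtype.ext (map_mul z a b))
    have hinj : Function.Injective ζ := fun a b h => by
      obtain ⟨v, hv⟩ := exists_ne (0 : V)
      have h' : z a v = z b v :=
        congrArg (fun t : MulAction.stabilizer H' U0 => ((t : H') : V ≃ₗ[ZMod q] V) v) h
      rw [hz, hz] at h'
      exact Units.ext (smul_left_injective (ZMod q) hv h')
    have := Subgroup.card_dvd_of_injective ζ hinj
    rwa [Nat.card_units, Nat.card_zmod] at this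
  rcases CfsgLib.Huppert.semilinear_or_exceptional htr hsol' with ⟨F, iF, iFF, e0, hsl⟩ | hex
  swap
  · exfalso
    rw [Module.natCard_eq_pow_finrank (K := ZMod q) (V := V), Nat.card_zmod, ← hndef] at hex
    simp only [Set.mem_insert_iff, Set.mem_singleton_iff] at hex
    have hn4 : q = 3 ∧ n = 4 := by
      have hp : ∀ (r k : ℕ), r.Prime → k ≠ 0 → q ^ n = r ^ k → q = r ∧ n = k := fun r k hr hk h => by
        have h1 : q = r := (Nat.prime_dvd_prime_iff_eq hq.out hr).1
          (hq.out.dvd_of_dvd_pow (h ▸ dvd_pow_self q (by omega)))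
        exact ⟨h1, Nat.pow_right_injective hr.two_le (show r ^ n = r ^ k by rw [← h1]; rwa [h1] at h ⊢)⟩
      rcases hex with h | h | h | h | h | h
      · have := hp 3 2 (by norm_num) (by norm_num) (by rw [h]; norm_num); omega
      · have := hp 5 2 (by norm_num) (by norm_num) (by rw [h]; norm_num); omega
      · have := hp 7 2 (by norm_num) (by norm_num) (by rw [h]; norm_num); omega
      · have := hp 11 2 (by norm_num) (by norm_num) (by rw [h]; norm_num); omega
      · have := hp 23 2 (by norm_num) (by norm_num) (by rw [h]; norm_num); omega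
      · exact hp 3 4 (by norm_num) (by norm_num) (by rw [h]; norm_num)
    obtain ⟨rfl, hn4⟩ := hn4
    rw [hn4] at hplanes'
    norm_num at hplanes'
    have h130 : N2 = 130 := by omega
    rw [h130] at hdvd
    obtain ⟨K, hK1, hK2⟩ := CfsgLib.Solvable.exists_piHall (G := H') ({5, 13} : Set ℕ)
    have hKd : Nat.card K ∣ 24261120 := by
      refine (Subgroup.card_subgroup_dvd_card K).trans ?_
      refine (Subgroup.card_subgroup_dvd_card H').trans ?_
      rw [card_GL, ← hndef, hn4, Fin.prod_univ_four]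
      norm_num
    have h65 : Nat.card K = 65 := by
      apply Nat.dvd_antisymm
      · rw [show (24261120 : ℕ) = 65 * 373248 by norm_num] at hKd
        refine Nat.Coprime.dvd_of_dvd_mul_right (Nat.coprime_of_dvd fun r hr h1 h2 => ?_) hKd
        rcases hK1 r hr h1 with rfl | rfl <;> norm_num at h2
      · have h := K.card_mul_index
        have hH : 65 ∣ Nat.card H' := (show 65 ∣ 130 * (3 - 1) by norm_num).trans hdvd
        rw [← h] at hH
        refine Nat.Coprime.dvd_of_dvd_mul_right ?_ hH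
        rw [show (65 : ℕ) = 5 * 13 by norm_num]
        refine Nat.Coprime.mul_left ?_ ?_
        · exact (Nat.Prime.coprime_iff_not_dvd (by norm_num)).2 (hK2 5 (by norm_num) (Or.inl rfl))
        · exact (Nat.Prime.coprime_iff_not_dvd (by norm_num)).2 (hK2 13 (by norm_num) (Or.inr rfl))
    haveI : Fact (Nat.Prime 5) := ⟨by norm_num⟩
    haveI : Fact (Nat.Prime 13) := ⟨by norm_num⟩
    obtain ⟨a, ha⟩ := exists_prime_orderOf_dvd_card' (G := K) 13 (by rw [h65]; norm_num)
    obtain ⟨b, hb⟩ := exists_prime_orderOf_dvd_card' (G := K) 5 (by rw [h65]; norm_num)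
    have hsyl : ∀ (r : ℕ) [Fact r.Prime] (c : K), orderOf c = r → ¬ r * r ∣ 65 →
        (∀ d : ℕ, d ∣ 65 → d ≡ 1 [MOD r] → d = 1) → (Subgroup.zpowers c).Normal := by
      intro r _ c hc hr2 hd1
      have hr65 : (Nat.factorization 65) r = 1 := by
        have h1 : 1 ≤ (Nat.factorization 65) r :=
          (Nat.Prime.dvd_iff_one_le_factorization Fact.out (by norm_num)).1
            (h65 ▸ hc ▸ orderOf_dvd_natCard c)
        by_contra h2
        exact hr2 ((pow_two r).symm ▸ (Nat.Prime.pow_dvd_iff_le_factorization Fact.out (by norm_num)).2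
          (by omega))
      let P : Sylow r K := Sylow.ofCard (Subgroup.zpowers c) (by rw [Nat.card_zpowers, hc, h65, hr65, pow_one])
      have h1 : Nat.card (Sylow r K) = 1 := by
        refine hd1 _ ?_ (card_sylow_modEq_one r K)
        exact h65 ▸ P.card_dvd_index.trans (Subgroup.index_dvd_card _)
      haveI : Subsingleton (Sylow r K) := (Nat.card_eq_one_iff_unique.1 h1).1
      exact Sylow.normal_of_subsingleton P
    have hna := hsyl 13 a ha (by norm_num) (fun d hd h => dvd_sixty_five hd (Or.inl h))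
    have hnb := hsyl 5 b hb (by norm_num) (fun d hd h => dvd_sixty_five hd (Or.inr h))
    have hdisj : Disjoint (Subgroup.zpowers a) (Subgroup.zpowers b) := by
      rw [disjoint_iff]
      refine Subgroup.inf_eq_bot_of_coprime ?_
      rw [Nat.card_zpowers, Nat.card_zpowers, ha, hb]
      norm_num
    have hab := Subgroup.commute_of_normal_of_disjoint _ _ hna hnb hdisj a b
      (Subgroup.mem_zpowers a) (Subgroup.mem_zpowers b)
    exact no_commuting_thirteen_five (hndef ▸ hn4) (a := ((a : H') : V ≃ₗ[ZMod 3] V))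
      (b := ((b : H') : V ≃ₗ[ZMod 3] V)) (by rw [Subgroup.orderOf_coe, Subgroup.orderOf_coe, ha])
      (by rw [Subgroup.orderOf_coe, Subgroup.orderOf_coe, hb])
      (congrArg (fun t : K => ((t : H') : V ≃ₗ[ZMod 3] V)) hab.eq)
  -- the semilinear case, over the Galois field
  letI := iF
  letI := iFF
  haveI : Fintype (GaloisField q n) := Fintype.ofFinite _
  have hFc : Fintype.card F = Fintype.card (GaloisField q n) := by
    rw [← Nat.card_eq_fintype_card, ← Nat.card_eq_fintype_card, GaloisField.card q n (by omega),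
      ← Nat.card_congr e0.toEquiv, Module.natCard_eq_pow_finrank (K := ZMod q) (V := V), Nat.card_zmod]
  let ρ : F ≃+* GaloisField q n := FiniteField.ringEquivOfCardEq hFc
  let e : V ≃+ GaloisField q n := e0.trans ρ.toAddEquiv
  have hsl' : ∀ g : H', ∃ (a : GaloisField q n) (σ : GaloisField q n ≃+* GaloisField q n),
      ∀ v, e ((g : V ≃ₗ[ZMod q] V) v) = a * σ (e v) := by
    intro g
    obtain ⟨a, σ, hσ⟩ := hsl g
    refine ⟨ρ a, (ρ.symm.trans σ).trans ρ, fun v => ?_⟩
    show ρ (e0 ((g : V ≃ₗ[ZMod q] V) v)) = ρ a * ρ (σ (ρ.symm (ρ (e0 v))))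
    rw [hσ v, map_mul, RingEquiv.symm_apply_apply]
  choose α σ hσ using hsl'
  have hval : ∀ g : H', e ((g : V ≃ₗ[ZMod q] V) (e.symm 1)) = α g := fun g => by
    rw [hσ, e.apply_symm_apply, map_one, mul_one]
  have hα0 : ∀ g, α g ≠ 0 := fun g h => by
    have h1 := hval g
    rw [h, AddEquivClass.map_eq_zero_iff, LinearEquiv.map_eq_zero_iff] at h1
    exact one_ne_zero (by simpa using congrArg e h1 : (1 : GaloisField q n) = 0)
  have hmulα : ∀ g g' : H', α (g * g') = α g * σ g (α g') := fun g g' => by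
    rw [← hval (g * g'), Subgroup.coe_mul, LinearEquiv.mul_apply, hσ g, hval]
  have hmulσ : ∀ g g' : H', σ (g * g') = σ g * σ g' := fun g g' => by
    ext x
    have h := hσ (g * g') (e.symm x)
    rw [Subgroup.coe_mul, LinearEquiv.mul_apply, hσ g, hσ g', e.apply_symm_apply, map_mul, hmulα,
      ← mul_assoc] at h
    exact (mul_left_cancel₀ (mul_ne_zero (hα0 g) ((map_ne_zero (σ g)).2 (hα0 g'))) h).symm
  let τ : H' →* (GaloisField q n ≃+* GaloisField q n) := MonoidHom.mk' σ hmulσ
  have hAutc : Nat.card (GaloisField q n ≃+* GaloisField q n) = n := by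
    have hgal : IsGalois (ZMod q) (GaloisField q n) := GaloisField.instIsGaloisOfFinite
    refine Eq.trans ?_ ((IsGalois.card_aut_eq_finrank (ZMod q) (GaloisField q n)).trans
      (GaloisField.finrank q (show n ≠ 0 by omega)))
    refine Nat.card_congr
      { toFun := fun f => AlgEquiv.ofRingEquiv (f := f) fun x => RingHom.congr_fun
          (RingHom.ext_zmod ((f : GaloisField q n →+* GaloisField q n).comp (algebraMap (ZMod q) _))
            (algebraMap (ZMod q) _)) x
        invFun := fun f => f.toRingEquiv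
        left_inv := fun f => RingEquiv.ext fun x => rfl
        right_inv := fun f => AlgEquiv.ext fun x => rfl }
  haveI : Finite (GaloisField q n ≃+* GaloisField q n) := Nat.finite_of_card_ne_zero (by omega)
  let κ : τ.ker →* (GaloisField q n)ˣ := MonoidHom.mk' (fun g => Units.mk0 (α g) (hα0 g)) fun g g' => by
    apply Units.ext
    show α ((g : H') * g') = α g * α g'
    rw [hmulα, show σ g = 1 from g.2, RingAut.one_apply]
  have hκ : Function.Injective κ := fun g g' h => by
    apply Subtype.ext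
    apply Subtype.ext
    refine LinearEquiv.ext fun v => e.injective ?_
    rw [hσ, hσ, show σ g = 1 from g.2, show σ g' = 1 from g'.2,
      show α g = α g' from congrArg Units.val h]
  have hdvd' : Nat.card H' ∣ (q ^ n - 1) * n := by
    rw [← τ.ker.card_mul_index, Subgroup.index_ker]
    refine mul_dvd_mul ?_ ((Subgroup.card_subgroup_dvd_card τ.range).trans (dvd_of_eq hAutc))
    have := Subgroup.card_dvd_of_injective κ hκ
    rwa [Nat.card_units, GaloisField.card q n (by omega)] at this
  have hchain : q ^ (n - 1) - 1 ∣ n * (q ^ 2 - 1) := by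
    have h1 : N2 * (q - 1) * (q ^ 2 - 1) ∣ (q ^ n - 1) * n * (q ^ 2 - 1) :=
      Nat.mul_dvd_mul_right (hdvd.trans hdvd') _
    rw [hplanes', mul_assoc] at h1
    refine Nat.dvd_of_mul_dvd_mul_left ?_ h1
    have : 1 < q ^ n := Nat.one_lt_pow (by omega) hq.out.one_lt
    omega
  have hdim := dim_of_dvd hq.out hn hchain
  refine ⟨hdim, ⟨e, fun h hh => ⟨α ⟨h, hmemH h hh⟩, σ ⟨h, hmemH h hh⟩, hσ ⟨h, hmemH h hh⟩⟩⟩, ?_, ?_⟩
  all_goals
    intro hq2 hn'
    have hHH : H' = H := by
      refine le_antisymm ?_ hmemH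
      rintro _ ⟨⟨h, u⟩, rfl⟩
      have : u = 1 := by subst hq2; exact Subsingleton.elim _ _
      simp [Φ, this, MonoidHom.noncommCoprod]
    rw [hHH] at hdvd hdvd'
    subst hq2
    rw [hn'] at hdvd' hplanes'
    norm_num at hdvd' hplanes' hdvd
  · rw [show N2 = 7 by omega] at hdvd
    have := Nat.le_of_dvd (by norm_num) hdvd'
    interval_cases Nat.card H <;> omega
  · rw [show N2 = 155 by omega] at hdvd
    exact Nat.dvd_antisymm hdvd' hdvd

end CfsgLib.Huppert.PlaneTrans
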